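import Cfsg.Agent.H802.FusNorm

/-!
# Saturated fusion systems over abelian groups (helper801)

Over an abelian `S` every map of a saturated fusion system extends to an element of `Aut_F(S)`, a group of
order prime to `p`; and `S = Z(F) × foc(F)`.
-/

set_option autoImplicit false

namespace Cfsg.Agent.H801

open Cfsg Cfsg.FusionSystem Cfsg.Agent.H802

variable {Ω : Type*} [Group Ω] {S : Subgroup Ω}

theorem centralizerIn_eq_of_abelian (hab : ∀ x ∈ S, ∀ y ∈ S, x * y = y * x) {P : Subgroup Ω}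
    (hP : P ≤ S) : centralizerIn S P = S := by
  refine le_antisymm inf_le_left ?_
  intro x hx
  exact ⟨hx, Subgroup.mem_centralizer_iff.2 fun y hy => hab y (hP hy) x hx⟩

/-- Over an abelian `S` every map of a saturated fusion system extends to `S`. -/
theorem exists_extension_of_abelian {p : ℕ} [Fact p.Prime] [Finite S] (hS : IsPGroup p S)
    {F : FusionSystem S} (hF : F.IsSaturated p) (hab : ∀ x ∈ S, ∀ y ∈ S, x * y = y * x)
    {P : Subgroup Ω} {φ : P →* Ω} (hφ : φ ∈ F.Hom P) :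
    ∃ ψ ∈ F.Hom S, ∀ (x : Ω) (hx : x ∈ P) (hx' : x ∈ S), ψ ⟨x, hx'⟩ = φ ⟨x, hx⟩ := by
  have hfc : F.IsFullyCentralized φ.range := by
    refine ⟨range_le_of_mem hφ, fun Q hQ => ?_⟩
    rw [centralizerIn_eq_of_abelian hab (isConj_le_right hQ),
      centralizerIn_eq_of_abelian hab (range_le_of_mem hφ)]
  obtain ⟨-, hr⟩ := isReceptive_of_isFullyCentralized hS hF hfc
  obtain ⟨ψ, hψ, hψe⟩ := hr P φ hφ rfl
  have hext : extender S P φ = S := by
    refine le_antisymm (extender_le S P φ) ?_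
    have h := centralizerIn_le_extender S P φ
    rwa [centralizerIn_eq_of_abelian hab (hom_le hφ)] at h
  have hS' : S ≤ extender S P φ := hext.ge
  refine ⟨ψ.comp (Subgroup.inclusion hS'), restrict_mem hψ hS', fun x hx hx' => ?_⟩
  exact hψe x hx (hS' hx')

/-- A map of the system with source `S` (finite) is an element of `Aut_F(S)`. -/
theorem exists_aut_of_hom [Finite S] {F : FusionSystem S} {ψ : S →* Ω} (hψ : ψ ∈ F.Hom S) :
    ∃ α ∈ F.autGroup S, ∀ x : S, ((α x : S) : Ω) = ψ x :=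
  exists_aut hψ (range_eq_of_mapsTo hψ (hom_apply_mem hψ))

/-- Over an abelian `S` every map of a saturated fusion system is the restriction of an element of
`Aut_F(S)`. -/
theorem exists_aut_extends {p : ℕ} [Fact p.Prime] [Finite S] (hS : IsPGroup p S)
    {F : FusionSystem S} (hF : F.IsSaturated p) (hab : ∀ x ∈ S, ∀ y ∈ S, x * y = y * x)
    {P : Subgroup Ω} {φ : P →* Ω} (hφ : φ ∈ F.Hom P) :
    ∃ α ∈ F.autGroup S, ∀ (x : Ω) (hx : x ∈ P) (hx' : x ∈ S),
      ((α ⟨x, hx'⟩ : S) : Ω) = φ ⟨x, hx⟩ := by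
  obtain ⟨ψ, hψ, hψe⟩ := exists_extension_of_abelian hS hF hab hφ
  obtain ⟨α, hα, hαe⟩ := exists_aut_of_hom hψ
  exact ⟨α, hα, fun x hx hx' => (hαe _).trans (hψe x hx hx')⟩

theorem isFullyNormalized_self [Finite S] (F : FusionSystem S) : F.IsFullyNormalized S := by
  refine ⟨le_rfl, fun Q hQ => ?_⟩
  have h1 : normalizerIn S S = S := le_antisymm inf_le_left (le_normalizerIn le_rfl)
  rw [h1]
  exact Nat.card_mono (Set.toFinite _) (fun x hx => hx.1)

/-- `Aut_F(S)` has order prime to `p` when `S` is abelian and `F` is saturated. -/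
theorem not_dvd_card_autGroup_of_abelian {p : ℕ} [Fact p.Prime] [Finite S] (hS : IsPGroup p S)
    {F : FusionSystem S} (hF : F.IsSaturated p) (hab : ∀ x ∈ S, ∀ y ∈ S, x * y = y * x) :
    ¬ p ∣ Nat.card (F.autGroup S) := by
  have hp : p.Prime := Fact.out
  have h1 := (isFullyAutomized_iff_card hS le_rfl).1
    (isFullyAutomized_of_isFullyNormalized hS hF (isFullyNormalized_self F))
  have h2 : autInducedBy S S = ⊥ := by
    rw [eq_bot_iff]
    intro α hα
    obtain ⟨g, hg, h⟩ := (mem_autInducedBy_iff S S α).1 hα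
    rw [Subgroup.mem_bot]
    apply MulEquiv.ext
    intro x
    apply Subtype.ext
    rw [h x, hab g hg x x.2]
    simp
  rw [h2] at h1
  have h3 : Nat.card (⊥ : Subgroup (MulAut S)) = 1 := Subgroup.card_bot
  rw [h3] at h1
  intro hd
  have h4 : (Nat.card (F.autGroup S)).factorization p = 0 := by
    by_contra hne
    have : 1 < p ^ (Nat.card (F.autGroup S)).factorization p :=
      Nat.one_lt_pow hne hp.one_lt
    omega
  have hpos : Nat.card (F.autGroup S) ≠ 0 := Nat.card_pos.ne'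
  have := (hp.dvd_iff_one_le_factorization hpos).1 hd
  omega

/-- An element fixed by `Aut_F(S)` for saturated `F` over abelian `S`: the fixed points form a central
subgroup. -/
theorem fixed_le_center {p : ℕ} [Fact p.Prime] [Finite S] (hS : IsPGroup p S)
    {F : FusionSystem S} (hF : F.IsSaturated p) (hab : ∀ x ∈ S, ∀ y ∈ S, x * y = y * x)
    {Q : Subgroup Ω} (hQ : Q ≤ S)
    (hfix : ∀ α ∈ F.autGroup S, ∀ (x : Ω) (hx : x ∈ Q), ((α ⟨x, hQ hx⟩ : S) : Ω) = x) :
    Q ≤ F.center := by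
  refine le_sSup ⟨hQ, fun P φ hφ => ?_⟩
  obtain ⟨α, hα, hαe⟩ := exists_aut_extends hS hF hab hφ
  have hPS := hom_le hφ
  have hsup : P ⊔ Q ≤ S := sup_le hPS hQ
  refine ⟨(S.subtype.comp α.toMonoidHom).comp (Subgroup.inclusion hsup),
    restrict_mem ((mem_autGroup_iff F le_rfl α).1 hα) hsup, fun x => ?_, fun x => ?_⟩
  · exact hαe x x.2 (hPS x.2)
  · exact hfix α hα x x.2

/-- Every element of the centre is fixed by every map of the system. -/
theorem apply_eq_of_mem_center {F : FusionSystem S} {P : Subgroup Ω} {φ : P →* Ω}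
    (hφ : φ ∈ F.Hom P) (x : P) (hx : (x : Ω) ∈ F.center) : φ x = x := by
  -- the centre is generated by central subgroups, in whose join the map extends
  have key : ∀ y ∈ F.center, ∀ (R : Subgroup Ω) (ψ : R →* Ω), ψ ∈ F.Hom R →
      ∃ (R' : Subgroup Ω) (ψ' : R' →* Ω) (hR : R ≤ R') (hy : y ∈ R'), ψ' ∈ F.Hom R' ∧
        (∀ z : R, ψ' (Subgroup.inclusion hR z) = ψ z) ∧ ψ' ⟨y, hy⟩ = y := by
    intro y hy
    rw [FusionSystem.center, sSup_eq_iSup'] at hy
    refine Subgroup.iSup_induction (S := fun Q : {Q : Subgroup Ω | F.IsCentral Q} => (Q : Subgroup Ω))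
      (C := fun y => ∀ (R : Subgroup Ω) (ψ : R →* Ω), ψ ∈ F.Hom R →
      ∃ (R' : Subgroup Ω) (ψ' : R' →* Ω) (hR : R ≤ R') (hy : y ∈ R'), ψ' ∈ F.Hom R' ∧
        (∀ z : R, ψ' (Subgroup.inclusion hR z) = ψ z) ∧ ψ' ⟨y, hy⟩ = y) hy ?_ ?_ ?_
    · rintro ⟨Q, hQ⟩ z hz R ψ hψ
      obtain ⟨ψ', hψ', h1, h2⟩ := hQ.2 R ψ hψ
      exact ⟨R ⊔ Q, ψ', le_sup_left, (le_sup_right : Q ≤ R ⊔ Q) hz, hψ', h1, h2 ⟨z, hz⟩⟩
    · intro R ψ hψ
      exact ⟨R, ψ, le_rfl, R.one_mem, hψ, fun z => rfl, map_one ψ⟩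
    · intro y z ihy ihz R ψ hψ
      obtain ⟨R₁, ψ₁, hR₁, hy, hψ₁, h1, h2⟩ := ihy R ψ hψ
      obtain ⟨R₂, ψ₂, hR₂, hz, hψ₂, h3, h4⟩ := ihz R₁ ψ₁ hψ₁
      have hy2 : y ∈ R₂ := hR₂ hy
      refine ⟨R₂, ψ₂, hR₁.trans hR₂, R₂.mul_mem hy2 hz, hψ₂, fun w => ?_, ?_⟩
      · rw [← h1 w, ← h3]
        rfl
      · have : (⟨y * z, R₂.mul_mem hy2 hz⟩ : R₂) = ⟨y, hy2⟩ * ⟨z, hz⟩ := rfl
        rw [this, map_mul, h4]
        have h5 := h3 ⟨y, hy⟩
        rw [h2] at h5
        have h6 : ψ₂ ⟨y, hy2⟩ = y := h5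
        rw [h6]
  obtain ⟨R', ψ', hR, hy, hψ', h1, h2⟩ := key x hx P φ hφ
  rw [← h1 x]
  exact h2

theorem center_le (F : FusionSystem S) : F.center ≤ S :=
  sSup_le fun _ hQ => hQ.1

/-- For a `p'`-group `A` of automorphisms of a finite abelian `p`-group: an element generated by the
`x⁻¹ α(x)` and fixed by `A` is trivial. -/
theorem coprime_disjoint {M : Type*} [CommGroup M] [Finite M] (A : Subgroup (MulAut M)) {x : M}
    (hco : Nat.Coprime (Nat.card M) (Nat.card A))
    (hfix : ∀ α ∈ A, α x = x)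
    (hx : x ∈ Subgroup.closure {y : M | ∃ α ∈ A, ∃ z : M, y = z⁻¹ * α z}) : x = 1 := by
  classical
  have : Fintype A := Fintype.ofFinite A
  let N : M →* M := { toFun := fun z => ∏ α : A, (α : MulAut M) z
                      map_one' := by simp
                      map_mul' := fun a b => by simp [Finset.prod_mul_distrib] }
  have hNker : Subgroup.closure {y : M | ∃ α ∈ A, ∃ z : M, y = z⁻¹ * α z} ≤ N.ker := by
    rw [Subgroup.closure_le]
    rintro _ ⟨α, hα, z, rfl⟩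
    show N (z⁻¹ * α z) = 1
    rw [map_mul, map_inv, inv_mul_eq_one]
    show ∏ β : A, (β : MulAut M) z = ∏ β : A, (β : MulAut M) (α z)
    refine (Fintype.prod_equiv (Equiv.mulRight (⟨α, hα⟩ : A)) _ _ fun β => ?_).symm
    rfl
  have h1 : N x = 1 := hNker hx
  have h2 : N x = x ^ Nat.card A := by
    show ∏ β : A, (β : MulAut M) x = _
    rw [Finset.prod_congr rfl (fun (β : A) _ => hfix (β : MulAut M) (Subtype.property β)),
      Finset.prod_const, Nat.card_eq_fintype_card]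
    rfl
  rw [h2] at h1
  have h3 : orderOf x ∣ Nat.card A := orderOf_dvd_of_pow_eq_one h1
  have h4 : orderOf x ∣ Nat.card M := orderOf_dvd_natCard x
  have h5 : orderOf x = 1 := Nat.eq_one_of_dvd_coprimes hco h4 h3
  exact orderOf_eq_one_iff.1 h5

/-- For a `p'`-group `A` of automorphisms of a finite abelian `p`-group: every element is a product of a fixed
one and one generated by the `x⁻¹ α(x)`. -/
theorem coprime_codisjoint {M : Type*} [CommGroup M] [Finite M] (A : Subgroup (MulAut M))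
    (hco : Nat.Coprime (Nat.card M) (Nat.card A)) (x : M) :
    ∃ c ∈ {c : M | ∀ α ∈ A, α c = c},
      ∃ d ∈ Subgroup.closure {y : M | ∃ α ∈ A, ∃ z : M, y = z⁻¹ * α z}, x = c * d := by
  classical
  have : Fintype A := Fintype.ofFinite A
  let N : M →* M := { toFun := fun z => ∏ α : A, (α : MulAut M) z
                      map_one' := by simp
                      map_mul' := fun a b => by simp [Finset.prod_mul_distrib] }
  set D := Subgroup.closure {y : M | ∃ α ∈ A, ∃ z : M, y = z⁻¹ * α z} with hD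
  have hfix : ∀ z, ∀ α ∈ A, α (N z) = N z := by
    intro z α hα
    show α (∏ β : A, (β : MulAut M) z) = ∏ β : A, (β : MulAut M) z
    rw [map_prod]
    refine Fintype.prod_equiv (Equiv.mulLeft (⟨α, hα⟩ : A)) _ _ fun β => ?_
    rfl
  have hmod : ∀ z : M, (z ^ Nat.card A)⁻¹ * N z ∈ D := by
    intro z
    have : (z ^ Nat.card A)⁻¹ * N z = ∏ β : A, (z⁻¹ * (β : MulAut M) z) := by
      rw [Finset.prod_mul_distrib, Finset.prod_const, Finset.card_univ, Nat.card_eq_fintype_card,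
        inv_pow]
      rfl
    rw [this]
    refine Subgroup.prod_mem _ fun β _ => ?_
    exact Subgroup.subset_closure ⟨β, β.2, z, rfl⟩
  -- write `x = y ^ card A`
  obtain ⟨y, hy⟩ : ∃ y : M, y ^ Nat.card A = x := by
    have := (powCoprime (G := M) hco).surjective x
    exact this
  refine ⟨N y, hfix y, (N y)⁻¹ * x, ?_, by group⟩
  have := D.inv_mem (hmod y)
  rw [hy] at this
  have e : (N y)⁻¹ * x = (x⁻¹ * N y)⁻¹ := by group
  rw [e]
  exact this

/-- The focal subgroup of a saturated fusion system over an abelian group, inside `S`. -/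
theorem focal_eq_of_abelian {p : ℕ} [Fact p.Prime] [Finite S] (hS : IsPGroup p S)
    {F : FusionSystem S} (hF : F.IsSaturated p) (hab : ∀ x ∈ S, ∀ y ∈ S, x * y = y * x) :
    F.focalSubgroup =
      (Subgroup.closure {y : S | ∃ α ∈ F.autGroup S, ∃ z : S, y = z⁻¹ * α z}).map S.subtype := by
  apply le_antisymm
  · rw [FusionSystem.focalSubgroup, Subgroup.closure_le]
    rintro _ ⟨P, φ, x, hφ, rfl⟩
    obtain ⟨α, hα, hαe⟩ := exists_aut_extends hS hF hab hφ
    have hxS : (x : Ω) ∈ S := hom_le hφ x.2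
    refine ⟨(⟨x, hxS⟩ : S)⁻¹ * α ⟨x, hxS⟩, Subgroup.subset_closure ⟨α, hα, _, rfl⟩, ?_⟩
    show (x : Ω)⁻¹ * ((α ⟨x, hxS⟩ : S) : Ω) = _
    rw [hαe x x.2 hxS]
  · rw [Subgroup.map_le_iff_le_comap, Subgroup.closure_le]
    rintro _ ⟨α, hα, z, rfl⟩
    exact Subgroup.subset_closure ⟨S, _, z, (mem_autGroup_iff F le_rfl α).1 hα, rfl⟩

theorem coprime_card_autGroup {p : ℕ} [Fact p.Prime] [Finite S] (hS : IsPGroup p S)
    {F : FusionSystem S} (hF : F.IsSaturated p) (hab : ∀ x ∈ S, ∀ y ∈ S, x * y = y * x) :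
    Nat.Coprime (Nat.card S) (Nat.card (F.autGroup S)) := by
  have hp : p.Prime := Fact.out
  obtain ⟨k, hk⟩ := (IsPGroup.iff_card).1 hS
  rw [hk]
  exact Nat.Coprime.pow_left _ ((Nat.Prime.coprime_iff_not_dvd hp).2
    (not_dvd_card_autGroup_of_abelian hS hF hab))

end Cfsg.Agent.H801
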